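import Cfsg.Agent.Cw3.D

/-! Verification of the tables against the power-conjugate presentation. -/

set_option autoImplicit false
set_option maxRecDepth 100000
set_option Elab.async false

namespace CF.Cw3

open CF.Comp CF.Schur.Pc

/-- `d` letters `a` in front of `w` -/
noncomputable def rp (d a : Nat) (w : List Nat) : List Nat :=
  Nat.rec (motive := fun _ => List Nat) w (fun _ r => a :: r) d

/-- the word of a number below 243 -/
noncomputable def wd (a b c d e q : Nat) : List Nat :=
  rp (Nat.div q (nat_lit 81)) a (rp (Nat.mod (Nat.div q (nat_lit 27)) (nat_lit 3)) b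
    (rp (Nat.mod (Nat.div q (nat_lit 9)) (nat_lit 3)) c (rp (Nat.mod (Nat.div q (nat_lit 3)) (nat_lit 3)) d
      (rp (Nat.mod q (nat_lit 3)) e []))))

/-- coset representative -/
noncomputable def wq (q : Nat) : List Nat := wd (nat_lit 0) (nat_lit 0) (nat_lit 1) (nat_lit 2) (nat_lit 3) q

/-- element of the normal subgroup of order 243 -/
noncomputable def wv (q : Nat) : List Nat := wd (nat_lit 4) (nat_lit 5) (nat_lit 6) (nat_lit 7) (nat_lit 8) q

/-- the two words collect to the same word -/
noncomputable def ceq (u w : List Nat) : Bool :=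
  Bool.rec false (Bool.rec false
    (col Pd (nat_lit 1) [] u fun N _ => col Pd (nat_lit 1) [] w fun N' _ => leq N N')
    (ltAll (nat_lit 9) w)) (ltAll (nat_lit 9) u)

/-- the power of 3 at the last nonzero digit -/
noncomputable def lg (q : Nat) : Nat :=
  Bool.rec (nat_lit 1) (Bool.rec (nat_lit 3) (Bool.rec (nat_lit 9) (Bool.rec (nat_lit 27) (nat_lit 81)
    (Nat.beq (Nat.mod q (nat_lit 81)) (nat_lit 0))) (Nat.beq (Nat.mod q (nat_lit 27)) (nat_lit 0)))
    (Nat.beq (Nat.mod q (nat_lit 9)) (nat_lit 0))) (Nat.beq (Nat.mod q (nat_lit 3)) (nat_lit 0))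

/-- the generators -/
noncomputable def g5 : List Nat := [nat_lit 1, nat_lit 3, nat_lit 9, nat_lit 27, nat_lit 81]

/-- the generators of the quotient -/
noncomputable def g4 : List Nat := [nat_lit 1, nat_lit 3, nat_lit 9, nat_lit 27]

theorem kP0 : allFrom (fun u => lall (fun g => ceq (lapp (wv u) (wv g)) (wv (ad u g))) g5) 0 243 = true := by
  decide +kernel

theorem kA0 : allFrom (fun u => lall (fun g => ceq (lapp (wv u) (wq g)) (lapp (wq g) (wv (ac u g)))) g4) 0 243 = true := by
  decide +kernel

theorem kF0 : allFrom (fun q => lall (fun g => force (ff q g) fun f =>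
    ceq (lapp (wq q) (wq g)) (lapp (wq (Nat.div f 243)) (wv (Nat.mod f 243)))) g4) 0 81 = true := by
  decide +kernel

theorem kW : allFrom (fun q => force (lg q) fun g => force (Nat.sub q g) fun r =>
    band (band (leq (wq q) (lapp (wq r) (wq g))) (leq (wv q) (lapp (wv r) (wv g))))
      (band (Nat.ble g q) (lany (Nat.beq g) g5))) 1 242 = true := by
  decide +kernel

theorem k0 : allFrom (fun u => band (band (Nat.beq (ad u 0) u) (Nat.beq (ad 0 u) u))
    (band (Nat.beq (ac u 0) u) (Bool.rec true (band (Nat.beq (ff u 0) (Nat.mul 243 u)) (Nat.beq (ac 0 u) 0))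
      (lt u 81)))) 0 243 = true := by
  decide +kernel

theorem kP : allFrom (fun w => force (lg w) fun g => force (Nat.sub w g) fun r => allFrom (fun u =>
    force (ad u w) fun s => band (lt s 243) (Nat.beq s (ad (ad u r) g))) 0 243) 1 242 = true := by
  decide +kernel

theorem kA : allFrom (fun w => force (lg w) fun g => force (Nat.sub w g) fun r => allFrom (fun u =>
    force (ac u w) fun s => band (lt s 243) (Nat.beq s (ac (ac u r) g))) 0 243) 1 80 = true := by
  decide +kernel

theorem kF : allFrom (fun w => force (lg w) fun g => force (Nat.sub w g) fun r => allFrom (fun u =>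
    force (ff u w) fun s => band (lt s 19683) (Nat.beq s (mu (ff u r) (Nat.mul 243 g)))) 0 81) 1 80 = true := by
  decide +kernel

theorem kI : allN 19683 (fun a => force (iv a) fun b => band (lt b 19683) (Nat.beq (mu a b) 0)) = true := by
  decide +kernel

/-- the power of 3 at the last nonzero digit -/
noncomputable def lg2 (c : Nat) : Nat :=
  Bool.rec (lg (Nat.mod c (nat_lit 243))) (Nat.mul (nat_lit 243) (lg (Nat.div c (nat_lit 243))))
    (Nat.beq (Nat.mod c (nat_lit 243)) (nat_lit 0))

/-- all generators -/
noncomputable def g9 : List Nat := [nat_lit 6561, nat_lit 2187, nat_lit 729, nat_lit 243,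
  nat_lit 81, nat_lit 27, nat_lit 9, nat_lit 3, nat_lit 1]

theorem kD : allN 19683 (fun c => force (lg2 c) fun g => Bool.rec (band (band (Nat.ble g c) (lany (Nat.beq g) g9))
    (Nat.beq (mu (Nat.sub c g) g) c)) true (Nat.beq c 0)) = true := by
  decide +kernel

theorem kZ1 : lall (fun n => allFrom (fun a => allFrom (fun b => lt (ad a b) n) 0 n) 0 n) g5 = true := by
  decide +kernel

theorem kZ2 : lall (fun n => allFrom (fun a => allFrom (fun b => lt (ff a b) (Nat.mul 243 n)) 0 n) 0 n) g4 = true := by
  decide +kernel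

theorem kS : lall (fun n => allFrom (fun u => Nat.beq (ad (Nat.sub u (Nat.mod u n)) (Nat.mod u n)) u) 0 243) g5 = true := by
  decide +kernel

theorem kS2 : lall (fun n => allFrom (fun u => Nat.beq (ff (Nat.sub u (Nat.mod u n)) (Nat.mod u n)) (Nat.mul 243 u)) 0 81)
    g4 = true := by
  decide +kernel

end CF.Cw3
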