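import Mathlib

/-! A strongly 3-embedded subgroup of a group acting on a group of order `3 ^ 5` or `3 ^ 6`. -/

set_option autoImplicit false

namespace CF.Cw3

open Subgroup MulAction
open scoped Pointwise

/-- a strongly 3-embedded subgroup `M` of a group acting on a group `V` of order `3 ^ 5` or `3 ^ 6` -/
structure Se {G V : Type*} [Group G] [Group V] [MulDistribMulAction G V] (M P : Subgroup G) (n : ℕ) (z : V) :
    Prop where
  finG : Finite G
  ne : M ≠ ⊤
  se : ∀ s ∈ M, orderOf s = 3 → ∀ g, g⁻¹ * s * g ∈ M → g ∈ M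
  le : P ≤ M
  pg : IsPGroup 3 P
  dvd : 27 ∣ Nat.card P
  num : n = 5 ∨ n = 6
  card : Nat.card V = 3 ^ n
  ff : ∀ σ : G, (orderOf σ).Prime → orderOf σ ≠ 3 → ∃ y : V, σ • y ≠ y
  nr : ∃ (B : Subgroup V) (c : V), c ∉ B ∧ Nat.card B = 3 ^ (n - 2) ∧
    ∀ y, y ∈ B ∨ y = c → ∃ s ∈ M, orderOf s = 3 ∧ s • y = y
  z1 : z ≠ 1
  z3 : z ^ 3 = 1
  zP : ∀ s ∈ P, s • z = z
  zM : ∀ g : G, g • z = z → g ∈ M

variable {G V : Type*} [Group G] [Group V] [MulDistribMulAction G V] {M P Q : Subgroup G} {n : ℕ} {z y : V}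
  {A : Subgroup V} {s g : G} {x x' : G ⧸ M}

namespace PL

theorem free {X : Type*} [MulAction G X] (Q : Subgroup G) (T : Set X) (hT : ∀ q ∈ Q, ∀ t ∈ T, q • t ∈ T)
    (f : ∀ q ∈ Q, ∀ t ∈ T, q • t = t → q = 1) : Nat.card Q ∣ T.ncard := by
  let S : SubMulAction Q X := ⟨T, fun q _ h => hT q q.2 _ h⟩
  have := Nat.card_congr (selfEquivOrbitsQuotientProd (G := Q) (X := S) fun b =>
    eq_bot_iff.2 fun q h => Subtype.ext (f q q.2 b b.2 (congrArg Subtype.val h)))
  rw [Nat.card_prod] at this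
  exact Dvd.intro_left _ this.symm

theorem fixc [Finite V] {p : ℕ} [Fact p.Prime] (hQ : IsPGroup p Q) (i : ∀ q ∈ Q, ∀ y ∈ A, q • y ∈ A) :
    Nat.card A ≡ Nat.card ↥(A ⊓ FixedPoints.subgroup Q V) [MOD p] := by
  let S : SubMulAction Q V := ⟨A, fun q _ h => i q q.2 _ h⟩
  have e : fixedPoints Q S ≃ ↥(A ⊓ FixedPoints.subgroup Q V) :=
    ⟨fun a => ⟨a.1.1, a.1.2, fun q => congrArg Subtype.val (a.2 q)⟩,
      fun a => ⟨⟨a.1, a.2.1⟩, fun q => Subtype.ext (a.2.2 q)⟩, fun _ => rfl, fun _ => rfl⟩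
  exact Nat.card_congr e ▸ hQ.card_modEq_card_fixedPoints S

theorem ex3 [Finite G] (hQ : IsPGroup 3 Q) (m : g ∈ Q) (n : g ≠ 1) : ∃ s ∈ zpowers g, orderOf s = 3 := by
  have : Fact (Nat.Prime 3) := ⟨Nat.prime_three⟩
  obtain ⟨k, e⟩ := IsPGroup.iff_orderOf.1 hQ ⟨g, m⟩
  rw [← orderOf_coe] at e
  obtain ⟨s, e⟩ := exists_prime_orderOf_dvd_card' (G := zpowers g) 3 (by
    rw [Nat.card_zpowers, e]; exact dvd_pow_self _ fun q => n (orderOf_eq_one_iff.1 (by rw [e, q]; rfl)))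
  exact ⟨s, s.2, by rwa [orderOf_coe]⟩

theorem fix_iff : s • (g : G ⧸ M) = g ↔ g⁻¹ * s * g ∈ M := by
  rw [Quotient.smul_coe, eq_comm, QuotientGroup.eq, smul_eq_mul, mul_assoc]

theorem fix0 : s • ((1 : G) : G ⧸ M) = (1 : G) ↔ s ∈ M := by rw [fix_iff, inv_one, one_mul, mul_one]

theorem eq0 : (g : G ⧸ M) = (1 : G) ↔ g ∈ M := by rw [eq_comm, QuotientGroup.eq]; simp

theorem oc (g s : G) : orderOf (g⁻¹ * s * g) = orderOf s := by
  simpa using (SemiconjBy.orderOf_eq g⁻¹ (x := s) (y := g⁻¹ * s * g) (by simp [SemiconjBy])).symm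

/-- the translates of an invariant subgroup -/
def tr (i : ∀ m ∈ M, ∀ y ∈ A, m • y ∈ A) : G ⧸ M → Subgroup V :=
  Quotient.lift (fun g => g • A) fun a b e => by
    have e := QuotientGroup.leftRel_apply.1 e
    ext y
    simp only [mem_pointwise_smul_iff_inv_smul_mem]
    exact ⟨fun h => by simpa [smul_smul] using i _ (inv_mem e) _ h, fun h => by simpa [smul_smul] using i _ e _ h⟩

variable {i : ∀ m ∈ M, ∀ y ∈ A, m • y ∈ A}

theorem mem_tr : y ∈ tr i g ↔ g⁻¹ • y ∈ A := mem_pointwise_smul_iff_inv_smul_mem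

theorem tr_one : tr i (1 : G) = A := one_smul G A

theorem tr_smul (g : G) (x : G ⧸ M) : tr i (g • x) = g • tr i x := by
  obtain ⟨a, rfl⟩ := QuotientGroup.mk_surjective x
  exact mul_smul g a A

theorem card_smul (g : G) (B : Subgroup V) : Nat.card ↥(g • B) = Nat.card B :=
  (Nat.card_congr (equivSMul g B).toEquiv).symm

theorem card_inf (g : G) (x x' : G ⧸ M) : Nat.card ↥(tr i (g • x) ⊓ tr i (g • x')) = Nat.card ↥(tr i x ⊓ tr i x') := by
  rw [tr_smul, tr_smul, ← smul_inf, card_smul]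

theorem dc {α β : Type*} [Finite α] [Finite β] (r : α → β → Prop) (s : Set α) (t : Set β) {m n : ℕ}
    (a : ∀ a ∈ s, m ≤ {b ∈ t | r a b}.ncard) (b : ∀ b ∈ t, {a ∈ s | r a b}.ncard ≤ n) :
    s.ncard * m ≤ t.ncard * n := by
  classical
  have := Fintype.ofFinite α
  have := Fintype.ofFinite β
  simp only [Set.ncard_eq_toFinset_card'] at *
  refine Finset.card_mul_le_card_mul r (fun x m => (a x (by simpa using m)).trans_eq ?_)
    fun x m => .trans (Eq.le ?_) (b x (by simpa using m))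
  all_goals congr 1; ext; simp

theorem reg {α : Type*} [Finite α] (r : α → α → Prop) (s : ∀ a b, r a b → r b a) (i : ∀ a, ¬ r a a) {d : ℕ}
    (e : ∀ a, {b | r a b}.ncard = d) : 2 ∣ Nat.card α * d := by
  classical
  have := Fintype.ofFinite α
  let Γ : SimpleGraph α := ⟨r, ⟨s⟩, ⟨i⟩⟩
  have a := Γ.sum_degrees_eq_twice_card_edges
  rw [Finset.sum_congr rfl (g := fun _ => d) fun v _ => by
    rw [← e v, ← Γ.card_neighborSet_eq_degree, ← Nat.card_eq_fintype_card]; rfl] at a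
  exact ⟨_, by simpa using a⟩

theorem sub1 [Finite V] (B : Subgroup V) : ((B : Set V) \ {1}).ncard + 1 = Nat.card B :=
  Set.ncard_diff_singleton_add_one B.one_mem

theorem inv_tr (e : g • y = y) (m : y ∈ tr i x) : y ∈ tr i (g • x) := by
  rw [tr_smul, ← e]; exact smul_mem_pointwise_smul _ _ _ m

end PL
open PL

namespace Se
variable (h : Se M P n z)
include h

theorem finV : Finite V := Nat.finite_of_card_ne_zero (by rw [h.card]; positivity)

theorem one (o : orderOf s = 3) (a : s • x = x) (b : s • x' = x') : x = x' := by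
  obtain ⟨u, rfl⟩ := QuotientGroup.mk_surjective x
  obtain ⟨w, rfl⟩ := QuotientGroup.mk_surjective x'
  exact QuotientGroup.eq.2 (h.se _ (fix_iff.1 a) ((oc u s).trans o) _ (by simpa [mul_assoc] using fix_iff.1 b))

theorem semi (hQ : IsPGroup 3 Q) (f : ∀ q ∈ Q, q • x = x) {T : Set (G ⧸ M)} (hT : ∀ q ∈ Q, ∀ t ∈ T, q • t ∈ T) :
    Nat.card Q ∣ (T \ {x}).ncard := by
  have := h.finG
  refine free Q _ (fun q m t a => ⟨hT q m t a.1, fun e => a.2 ?_⟩) fun q m t a e => by_contra fun n => ?_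
  · exact smul_left_cancel q (e.trans (f q m).symm)
  · obtain ⟨s, b, o⟩ := ex3 hQ m n
    exact a.2 (h.one o ((zpowers_le.2 (show q ∈ stabilizer G t from e)) b) (f s (zpowers_le.2 m b)))

theorem fx (p : (orderOf s).Prime) (o : orderOf s ≠ 3) :
    ∃ k < n, Nat.card (FixedPoints.subgroup (zpowers s) V) = 3 ^ k ∧ 3 ^ n ≡ 3 ^ k [MOD orderOf s] := by
  have := h.finV
  have := Fact.mk p
  obtain ⟨k, a, b⟩ := (Nat.dvd_prime_pow Nat.prime_three).1 (h.card ▸ card_subgroup_dvd_card (FixedPoints.subgroup (zpowers s) V))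
  have c := fixc (A := (⊤ : Subgroup V)) (Q := zpowers s) (p := orderOf s) (.of_card (n := 1) (by simp)) fun _ _ _ _ => trivial
  rw [top_inf_eq, card_top, h.card, b] at c
  refine ⟨k, a.lt_of_ne fun e => ?_, b, c⟩
  obtain ⟨y, q⟩ := h.ff s p o
  have t := eq_top_of_card_eq (FixedPoints.subgroup (zpowers s) V) (by rw [b, e, h.card])
  exact (FixedPoints.mem_subgroup _ _ y).1 (t ▸ mem_top y) ⟨s, mem_zpowers s⟩ |> q

theorem nd {q : ℕ} (p : q.Prime) (k : q ≠ 3 ∧ ∀ k < n, ¬ 3 ^ n ≡ 3 ^ k [MOD q]) : ¬ q ∣ Nat.card G := fun d => by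
  have := h.finG
  have := Fact.mk p
  obtain ⟨s, rfl⟩ := exists_prime_orderOf_dvd_card' q d
  obtain ⟨j, a, -, b⟩ := h.fx p k.1
  exact k.2 j a b

theorem nd' {q : ℕ} (m : q ∈ [17, 19, 23, 31, 37, 41, 61, 109, 149, 163, 271]) : ¬ q ∣ Nat.card G :=
  h.nd (by revert q; norm_num) (by obtain rfl | rfl := h.num <;> revert q <;> decide)

theorem cpl : ({((1 : G) : G ⧸ M)}ᶜ : Set (G ⧸ M)).ncard + 1 = M.index := by
  have := h.finG
  rw [add_comm, ← Set.ncard_singleton ((1 : G) : G ⧸ M), Set.ncard_add_ncard_compl]; rfl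

theorem bd (O : Set V) (hO : ∀ y ∈ O, (∀ g : G, g • y = y → g ∈ M) ∧ ∃ s ∈ M, orderOf s = 3 ∧ s • y = y) :
    (M.index - 1) * O.ncard + 3 ^ (n - 2) + 1 ≤ 3 ^ n := by
  have := h.finV
  obtain ⟨B, c, nc, cB, f⟩ := h.nr
  have a := Set.ncard_le_ncard_of_injOn (s := {((1 : G) : G ⧸ M)}ᶜ ×ˢ O) (t := (insert c (B : Set V))ᶜ)
    (fun p => p.1.out • p.2) (fun p m q => by
      obtain ⟨s, a, b, e⟩ := f _ (Or.symm q)
      exact m.1 (p.1.out_eq' ▸ eq0.2 (h.se s a b _ ((hO _ m.2).1 _ (by rw [mul_smul, mul_smul, e, inv_smul_smul])))))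
    fun p m p' m' e => by
      obtain ⟨s, a, b, q⟩ := (hO _ m'.2).2
      have e' : p.1.out • p.2 = p'.1.out • p'.2 := e
      have := h.se s a b (p'.1.out⁻¹ * p.1.out) ((hO _ m.2).1 _ (by
        rw [mul_smul, mul_smul, mul_smul, e', inv_smul_smul, q, mul_inv_rev, inv_inv, mul_smul, ← e', inv_smul_smul]))
      have k : p'.1 = p.1 := by rw [← p.1.out_eq', ← p'.1.out_eq']; exact QuotientGroup.eq.2 this
      exact Prod.ext k.symm (smul_left_cancel _ (k ▸ e'))
  have b := Set.ncard_add_ncard_compl (insert c (B : Set V))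
  rw [Set.ncard_insert_of_notMem nc, h.card, ← Nat.card_coe_set_eq (B : Set V)] at b
  rw [Set.ncard_prod, Nat.eq_sub_of_add_eq h.cpl] at a
  have : Nat.card (B : Set V) = _ := cB
  omega

theorem zz (m : g ∈ M) (e : y = g • z ∨ y = (g • z)⁻¹) :
    (∀ g : G, g • y = y → g ∈ M) ∧ ∃ s ∈ M, orderOf s = 3 ∧ s • y = y := by
  have := h.finG
  have : Fact (Nat.Prime 3) := ⟨Nat.prime_three⟩
  obtain ⟨s, o⟩ := exists_prime_orderOf_dvd_card' (G := P) 3 (.trans (by decide) h.dvd)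
  have k : ∀ a : G, a • y = y ↔ (g⁻¹ * a * g) • z = z := fun a => by
    rw [mul_smul, mul_smul, inv_smul_eq_iff]
    rcases e with rfl | rfl <;> simp
  exact ⟨fun a q => by simpa [mul_assoc] using mul_mem (mul_mem m (h.zM _ ((k a).1 q))) (inv_mem m),
    g⁻¹⁻¹ * s * g⁻¹, mul_mem (mul_mem (inv_mem (inv_mem m)) (h.le s.2)) (inv_mem m),
    by rw [oc, orderOf_coe, o], (k _).2 (by simpa [mul_assoc] using h.zP s s.2)⟩

theorem idx : M.index = 55 ∨ M.index = 28 ∧ n = 6 := by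
  have := h.finG
  have a := h.dvd.trans (h.semi (x := (1 : G)) h.pg (fun q m => fix0.2 (h.le m)) (T := .univ) fun _ _ _ _ => trivial)
  have b := h.bd {z, z⁻¹} fun y m => h.zz (one_mem M) (by simpa using m)
  have c := h.cpl
  have d : M.index ≠ 1 := fun e => h.ne (index_eq_one.1 e)
  have e := fun {q} m d => h.nd' (q := q) m (Dvd.dvd.trans d M.index_dvd_card)
  rw [Set.ncard_pair fun q => h.z1 (by simpa [pow_succ, ← q, mul_eq_one_iff_eq_inv.2 q] using h.z3)] at b
  rw [← Set.compl_eq_univ_diff] at a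
  obtain ⟨k, a⟩ := a
  have f : n = 5 → ¬ 7 ∣ M.index := fun q d =>
    h.nd (by norm_num) (by rw [q]; decide) (d.trans M.index_dvd_card)
  have l : k < 12 := by obtain rfl | rfl := h.num <;> omega
  rw [a] at c
  rw [← c] at d e f ⊢
  interval_cases k
  · exact absurd rfl d
  · exact .inr ⟨rfl, h.num.resolve_left fun q => f q (by decide)⟩
  · exact .inl rfl
  exacts [(e (q := 41) (by decide) (by decide)).elim, (e (q := 109) (by decide) (by decide)).elim,
    (e (q := 17) (by decide) (by decide)).elim, (e (q := 163) (by decide) (by decide)).elim,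
    (e (q := 19) (by decide) (by decide)).elim, (e (q := 31) (by decide) (by decide)).elim,
    (e (q := 61) (by decide) (by decide)).elim, (e (q := 271) (by decide) (by decide)).elim,
    (e (q := 149) (by decide) (by decide)).elim]

theorem big (O : Set V) (hO : ∀ y ∈ O, ∃ m ∈ M, y = m • z ∨ y = (m • z)⁻¹)
    (h5 : n = 5 → 4 ≤ O.ncard) (h6 : n = 6 → 24 ≤ O.ncard) : False := by
  have a := h.bd O fun y m => let ⟨_, b, c⟩ := hO y m; h.zz b c
  obtain rfl | rfl := h.num <;> obtain b | b := h.idx <;> simp only [b] at a <;> omega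

variable (i : ∀ m ∈ M, ∀ y ∈ A, m • y ∈ A)
  (nine : ∀ y ∈ A, ∃ Q ≤ M, IsPGroup 3 Q ∧ 9 ∣ Nat.card Q ∧ ∀ q ∈ Q, q • y = y)
include nine

theorem r9 (m : y ∈ A) {T : Set (G ⧸ M)} (hT : ∀ g : G, g • y = y → ∀ t ∈ T, g • t ∈ T) :
    9 ∣ (T \ {((1 : G) : G ⧸ M)}).ncard :=
  let ⟨_, a, b, c, d⟩ := nine y m
  c.trans (h.semi b (fun _ m => fix0.2 (a m)) fun q m => hT q (d q m))

theorem orb (m : y ∈ A) : {x | y ∈ tr i x} = orbit (stabilizer G y) ((1 : G) : G ⧸ M) := by
  have := h.finG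
  refine Set.Subset.antisymm (fun x a => by_contra fun b => ?_) ?_
  · obtain ⟨g, rfl⟩ := QuotientGroup.mk_surjective x
    have c := h.r9 nine m (T := orbit (stabilizer G y) ((1 : G) : G ⧸ M)) fun g e t q =>
      mem_orbit_of_mem_orbit (⟨g, e⟩ : stabilizer G y) q
    have d := h.r9 nine ((mem_tr (i := i)).1 a) (T := g⁻¹ • orbit (stabilizer G y) ((1 : G) : G ⧸ M)) fun u e t q => by
      rw [Set.mem_inv_smul_set_iff] at q ⊢
      rw [← inv_smul_smul g t, ← mul_smul, ← mul_smul]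
      exact mem_orbit_of_mem_orbit (⟨g * u * g⁻¹, by
        rw [mem_stabilizer_iff, mul_smul, mul_smul, e, smul_inv_smul]⟩ : stabilizer G y) q
    rw [Set.diff_singleton_eq_self (by rw [Set.mem_inv_smul_set_iff]; simpa using b), Set.ncard_smul_set,
      ← Set.ncard_diff_singleton_add_one (mem_orbit_self _)] at d
    omega
  · rintro _ ⟨g, rfl⟩
    exact inv_tr g.2 (tr_one (i := i) ▸ m)

theorem orb1 (m : y ∈ A) (e : ∀ g : G, g • y = y → g ∈ M) (a : y ∈ tr i x) : x = (1 : G) := by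
  obtain ⟨g, rfl⟩ : x ∈ orbit (stabilizer G y) ((1 : G) : G ⧸ M) := h.orb i nine m ▸ a
  exact fix0.2 (e g g.2)

omit nine in
include i in
theorem nM (hA : Nat.card A = 27) {q : ℕ} (m : q = 5 ∨ q = 7) : ¬ q ∣ Nat.card M := fun d => by
  have := h.finG
  have := h.finV
  have : Fact q.Prime := ⟨by rcases m with rfl | rfl <;> norm_num⟩
  obtain ⟨s, o⟩ := exists_prime_orderOf_dvd_card' q d
  rw [← orderOf_coe] at o
  obtain ⟨k, a, b, c⟩ := h.fx (s := (s : G)) (o ▸ this.out) (by omega)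
  have e := fixc (A := A) (Q := zpowers (s : G)) (p := q) (.of_card (n := 1) (by simp [o]))
    fun q m => i q (zpowers_le.2 s.2 m)
  obtain ⟨j, f, l⟩ := (Nat.dvd_prime_pow Nat.prime_three).1
    ((card_dvd_of_le (inf_le_left (b := FixedPoints.subgroup (zpowers (s : G)) V))).trans (hA.trans (c := 3 ^ 3) rfl).dvd)
  have t := card_dvd_of_le (inf_le_right (a := A) (b := FixedPoints.subgroup (zpowers (s : G)) V))
  rw [l, b, Nat.pow_dvd_pow_iff_le_right (by decide)] at t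
  rw [hA, l] at e
  rw [o] at c
  clear d o b l this
  obtain rfl | rfl := h.num <;> obtain rfl | rfl := m <;> interval_cases j <;> interval_cases k <;> revert c e <;> decide

omit nine in
theorem plane (A : Subgroup V) (hA : Nat.card A = 27) (hz : z ∈ A) (inv : ∀ m ∈ M, ∀ y ∈ A, m • y ∈ A)
    (nine : ∀ y ∈ A, ∃ Q ≤ M, IsPGroup 3 Q ∧ 9 ∣ Nat.card Q ∧ ∀ q ∈ Q, q • y = y)
    (fix : ∀ y ∈ A, (∀ s ∈ P, s • y = y) → y ∈ zpowers z) : False := by
  classical
  have := h.finG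
  have := h.finV
  have : Fact (Nat.Prime 3) := ⟨Nat.prime_three⟩
  have N := h.idx
  have cp := h.cpl
  have m0 : ∀ y ∈ A, y ∈ tr inv (1 : G) := fun y m => (tr_one (i := inv)).symm ▸ m
  have nu : ∀ y ∈ A, y ≠ 1 → {x | y ∈ tr inv x} ≠ .univ := fun y m n e => by
    let I := ⨅ x, tr inv x
    have le : I ≤ A := (iInf_le _ _).trans (tr_one (i := inv)).le
    have a := fixc (A := I) h.pg fun q _ w m => mem_iInf.2 fun x => by
      rw [← smul_inv_smul q x, tr_smul]; exact smul_mem_pointwise_smul _ _ _ (mem_iInf.1 m _)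
    obtain ⟨j, -, l⟩ := (Nat.dvd_prime_pow Nat.prime_three).1 ((card_dvd_of_le le).trans (hA.trans (c := 3 ^ 3) rfl).dvd)
    have b : j ≠ 0 := fun q => n (mem_bot.1 (card_eq_one.1 (l.trans (by rw [q]; rfl)) ▸
      (mem_iInf.2 fun x => Set.eq_univ_iff_forall.1 e x : y ∈ I)))
    obtain ⟨⟨w, c, d⟩, n⟩ := ne_bot_iff_exists_ne_one.1 fun q : I ⊓ FixedPoints.subgroup P V = ⊥ => by
      rw [q, card_bot, l] at a
      exact absurd (a.symm.trans (Nat.modEq_zero_iff_dvd.2 (dvd_pow_self 3 b))) (by decide)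
    have k := fix w (le c) fun s m => d ⟨s, m⟩
    rw [mem_zpowers_iff_mem_range_orderOf, orderOf_eq_prime h.z3 h.z1] at k
    obtain ⟨u, a, rfl⟩ := Finset.mem_image.1 k
    have t := fun x => h.orb1 inv nine (le c) (h.zz (one_mem M) (by
      rw [Finset.mem_range] at a
      interval_cases u
      · exact absurd (Subtype.ext (pow_zero z)) n
      · simp
      · exact .inr (by rw [one_smul]; exact eq_inv_of_mul_eq_one_left ((pow_succ z 2).symm.trans h.z3)))).1 (mem_iInf.1 c x)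
    rw [Set.compl_empty_iff.2 (Set.eq_univ_of_forall (s := {_}) t), Set.ncard_empty] at cp
    omega
  have r : ∀ y ∈ A, y ≠ 1 → {x | y ∈ tr inv x}.ncard = 1 ∨ {x | y ∈ tr inv x}.ncard = 10 ∧ M.index = 55 := fun y m n => by
    have a := h.r9 nine m (T := {x | y ∈ tr inv x}) fun g e t q => inv_tr e q
    have b := Set.ncard_diff_singleton_add_one (s := {x | y ∈ tr inv x}) (a := (1 : G)) (m0 y m)
    have c : {x | y ∈ tr inv x}.ncard < M.index := Set.ncard_lt_card (nu y m n)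
    have d : {x | y ∈ tr inv x}.ncard ∣ Nat.card G := by
      rw [h.orb inv nine m, ← index_stabilizer]; exact (index_dvd_card _).trans (card_subgroup_dvd_card _)
    obtain ⟨k, a⟩ := a
    rw [a] at b
    rw [← b] at c d ⊢
    have e := fun {q} m k => h.nd' (q := q) m (Dvd.dvd.trans k d)
    have f := fun {q} m (k : q ∣ 9 * k + 1) (c : q.Coprime M.index) => h.nM inv hA m
      (c.dvd_of_dvd_mul_left (M.index_mul_card ▸ k.trans d))
    have : k < 6 := by omega
    interval_cases k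
    · exact .inl rfl
    · exact .inr ⟨rfl, N.resolve_right fun q => f (.inl rfl) (by decide) (by rw [q.1]; decide)⟩
    · exact (e (q := 19) (by decide) (by decide)).elim
    · exact (f (.inr rfl) (by decide) (by rw [show M.index = 55 by omega]; decide)).elim
    · exact (e (q := 37) (by decide) (by decide)).elim
    · exact (e (q := 23) (by decide) (by decide)).elim
  have b1 := h.bd {y ∈ (A : Set V) \ {1} | {x | y ∈ tr inv x}.ncard = 1} fun y m => ⟨fun g e => by
      obtain ⟨x, a⟩ := Set.ncard_eq_one.1 m.2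
      exact fix0.1 ((a.le (inv_tr e (m0 y m.1.1))).trans (a.le (m0 y m.1.1)).symm), by
      obtain ⟨Q, a, -, c, d⟩ := nine y m.1.1
      obtain ⟨s, o⟩ := exists_prime_orderOf_dvd_card' (G := Q) 3 (.trans (by decide) c)
      exact ⟨s, a s.2, by rwa [orderOf_coe], d s s.2⟩⟩
  have a1 := (sub1 A).trans hA
  obtain N | N := N
  swap
  · rw [Set.sep_eq_self_iff_mem_true.2 fun y m => (r y m.1 m.2).resolve_right (by omega), N.1, N.2] at b1
    omega
  have b2 := Set.ncard_le_ncard (show (A : Set V) \ {1} ⊆ {y ∈ (A : Set V) \ {1} | {x | y ∈ tr inv x}.ncard = 1} ∪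
    {y ∈ (A : Set V) \ {1} | {x | y ∈ tr inv x}.ncard = 10} from fun y m => (r y m.1 m.2).imp (⟨m, ·⟩) (⟨m, ·.1⟩))
  replace b2 := b2.trans (Set.ncard_union_le _ _)
  let D := {x | Nat.card ↥(A ⊓ tr inv x) = 9}
  have c0 : ∀ g : G, ∀ x, Nat.card ↥(tr inv g ⊓ tr inv (g • x)) = Nat.card ↥(A ⊓ tr inv x) := fun g x => by
    have := card_inf (i := inv) g (1 : G) x
    rwa [tr_one, Quotient.smul_coe, smul_eq_mul, mul_one] at this
  have d1 := h.dvd.trans (h.semi (x := (1 : G)) h.pg (fun q m => fix0.2 (h.le m)) (T := D) fun q m x a => by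
    have := (c0 q x).trans a
    rwa [eq0.2 (h.le m), tr_one] at this)
  rw [Set.diff_singleton_eq_self fun q => by rw [Set.mem_setOf_eq, tr_one, inf_idem, hA] at q; omega] at d1
  have d2 := reg (fun x x' => Nat.card ↥(tr inv x ⊓ tr inv x') = 9) (fun _ _ a => inf_comm (tr inv _) _ ▸ a)
    (fun x => by
      obtain ⟨g, rfl⟩ := QuotientGroup.mk_surjective x
      rw [inf_idem, show tr inv g = g • A from rfl, card_smul, hA]; decide) (d := D.ncard) fun x => by
    obtain ⟨g, rfl⟩ := QuotientGroup.mk_surjective x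
    rw [← Set.ncard_smul_set g D]
    congr 1
    ext x
    rw [Set.mem_smul_set_iff_inv_smul_mem, Set.mem_setOf_eq, ← smul_inv_smul g x, c0, smul_inv_smul]; rfl
  have d3 := dc (fun x y => y ∈ tr inv x) D ((A : Set V) \ {1}) (m := 8) (n := 10) (fun x a => by
      exact (Nat.succ.inj ((sub1 _).trans a)).ge.trans (Set.ncard_le_ncard fun y m => ⟨⟨m.1.1, m.2⟩, m.1.2⟩)) fun y m =>
    (Set.ncard_le_ncard (t := {x | y ∈ tr inv x}) fun _ a => a.2).trans (by have := r y m.1 m.2; omega)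
  have d4 : D = ∅ := (Set.ncard_eq_zero).1 (by rw [← index, N] at d2; omega)
  have d5 := dc (fun y x => y ∈ tr inv x) {y ∈ (A : Set V) \ {1} | {x | y ∈ tr inv x}.ncard = 10}
    {((1 : G) : G ⧸ M)}ᶜ (m := 9) (n := 2) (fun y m => by
      have := (Set.ncard_diff_singleton_add_one (s := {x | y ∈ tr inv x}) (a := (1 : G)) (m0 y m.1.1)).trans m.2
      rw [Set.diff_eq, Set.inter_comm] at this
      exact (Nat.succ.inj this).ge) fun x m => by
    obtain ⟨j, f, l⟩ := (Nat.dvd_prime_pow Nat.prime_three).1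
      ((card_dvd_of_le (inf_le_left (b := tr inv x))).trans (hA.trans (c := 3 ^ 3) rfl).dvd)
    have a := Set.ncard_le_ncard (show {y ∈ {y ∈ (A : Set V) \ {1} | {x | y ∈ tr inv x}.ncard = 10} | y ∈ tr inv x} ⊆
      (↑(A ⊓ tr inv x) : Set V) \ {1} from fun y m => ⟨⟨m.1.1.1, m.2⟩, m.1.1.2⟩)
    have b := (sub1 _).trans l
    interval_cases j
    · omega
    · omega
    · exact (d4.le l).elim
    · exact (m (h.orb1 inv nine hz h.zM ((eq_of_le_of_card_ge inf_le_left (hA.trans l.symm).le).ge hz).2)).elim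
  rw [N] at b1
  obtain rfl | rfl := h.num <;> omega

end Se

end CF.Cw3
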